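import Mathlib
import Cfsg.Agent.H679.Fpf.Sing
import Cfsg.Agent.H80.Fpf.Num
import Cfsg.Agent.H80.Fpf.Mult
import Cfsg.Agent.H80.Fpf.Reduce
import Cfsg.Agent.H277.ClsPsl
import Cfsg.Agent.H341.ThreeElts
import Cfsg.Agent.S2332
import Cfsg.Agent.S2086
import Cfsg.Agent.S0249

/-!
# The row of `PSL_n(q)`, `n ≥ 3` (helper679, task 1479, for S4228)

* `not_may` : `¬ May r PSL_n(q)` for an odd prime divisor `r` of the order of `PSL_n(q)`, unless `q` has order `n`
  modulo `r`; `(n, q) ≠ (3, 2), (3, 4), (4, 2)`;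
* `not_may_num` : two primes `r < r'` with order `n`: `¬ May r PSL_n(q)`;
* `row_psln` : the row.
-/

set_option autoImplicit false
set_option linter.unusedSectionVars false

namespace Cfsg.Agent.H679.Fpf

open Matrix Cfsg Cfsg.Agent.H80.Fpf

universe v w

theorem multDvd_congr {S : Type v} [Group S] {T : Type w} [Group T] {m : ℕ} (h : MultDvd S m) (e : S ≃* T) :
    MultDvd T m := by
  intro G _ _ π hπ
  have h1 := h G _ (hπ.equiv_comp e.symm)
  have h2 : (e.symm.toMonoidHom.comp π).ker = π.ker := by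
    ext x
    rw [MonoidHom.mem_ker, MonoidHom.mem_ker]
    show e.symm (π x) = 1 ↔ _
    rw [map_eq_one_iff e.symm e.symm.injective]
  rwa [h2] at h1

theorem exists_char (F : Type) [Field F] [Fintype F] :
    ∃ (l f : ℕ) (_ : CharP F l), l.Prime ∧ 1 ≤ f ∧ Fintype.card F = l ^ f := by
  obtain ⟨p, hp⟩ := CharP.exists F
  obtain ⟨n, hpp, hn⟩ := FiniteField.card F p
  exact ⟨p, n, hp, hpp, n.pos, hn⟩

/-! ### Arithmetic -/

theorem dvd_card_gl {F : Type} [Field F] [Fintype F] {m i r : ℕ} (h1 : 1 ≤ i) (him : i ≤ m)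
    (h : r ∣ Fintype.card F ^ i - 1) : r ∣ Nat.card (GL (Fin m) F) := by
  rw [Matrix.card_GL_field]
  refine dvd_trans ?_ (Finset.dvd_prod_of_mem _ (Finset.mem_univ (⟨m - i, by omega⟩ : Fin m)))
  show r ∣ Fintype.card F ^ m - Fintype.card F ^ (m - i)
  have h2 : Fintype.card F ^ m - Fintype.card F ^ (m - i) =
      Fintype.card F ^ (m - i) * (Fintype.card F ^ i - 1) := by
    rw [Nat.mul_sub, mul_one, ← pow_add, Nat.sub_add_cancel him]
  rw [h2]
  exact h.mul_left _

/-- An odd prime divisor of the order. -/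
theorem cases_dvd {F : Type} [Field F] [Fintype F] {n r l f : ℕ} (hn : 2 ≤ n) (hr : r.Prime)
    (hl : l.Prime) (hF : Fintype.card F = l ^ f)
    (hd : r ∣ Nat.card (ProjectiveSpecialLinearGroup (Fin n) F)) :
    r = l ∨ r ∣ Nat.card (GL (Fin (n - 1)) F) ∨ OrdN (Fintype.card F) n r := by
  have h1 := Cfsg.Agent.H277.ClsPsl.card_psl (F := F) rfl hn
  have h2 : r ∣ Fintype.card F ^ (n * (n - 1) / 2) * ∏ i ∈ Finset.range (n - 1), (Fintype.card F ^ (i + 2) - 1) := by
    rw [← h1]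
    exact hd.mul_left _
  rcases hr.dvd_mul.1 h2 with h3 | h3
  · left
    have h4 := hr.dvd_of_dvd_pow h3
    rw [hF] at h4
    exact (Nat.prime_dvd_prime_iff_eq hr hl).1 (hr.dvd_of_dvd_pow h4)
  · right
    by_cases hgl : r ∣ Nat.card (GL (Fin (n - 1)) F)
    · exact Or.inl hgl
    · right
      have hno : ∀ d, 0 < d → d < n → ¬ r ∣ Fintype.card F ^ d - 1 := fun d hd0 hdn hdd =>
        hgl (dvd_card_gl hd0 (by omega) hdd)
      rw [Prime.dvd_finsetProd_iff hr.prime] at h3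
      obtain ⟨i, hi, h4⟩ := h3
      rw [Finset.mem_range] at hi
      have h5 : i + 2 = n := by
        by_contra hne
        exact hno (i + 2) (by omega) (by omega) h4
      rw [h5] at h4
      exact ⟨h4, hno⟩

theorem OrdN.le {q n r : ℕ} (hr : r.Prime) (hq : 0 < q) (h : OrdN q n r) (hn : 0 < n) : n ≤ r - 1 := by
  by_contra hlt
  push Not at hlt
  have hrq : ¬ r ∣ q := by
    intro h1
    have h2 : r ∣ q ^ n := h1.trans (dvd_pow_self q hn.ne')
    have h3 : 1 ≤ q ^ n := Nat.one_le_pow _ _ hq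
    have h4 := Nat.dvd_sub h2 h.1
    rw [Nat.sub_sub_self h3] at h4
    exact hr.one_lt.ne' (Nat.dvd_one.1 h4)
  apply h.2 (r - 1) (by have := hr.two_le; omega) hlt
  have h5 : q ^ (r - 1) ≡ 1 [MOD r] := by
    have h6 := Nat.ModEq.pow_totient ((Nat.Prime.coprime_iff_not_dvd hr).2 hrq).symm
    rwa [Nat.totient_prime hr] at h6
  exact (Nat.modEq_iff_dvd' (Nat.one_le_pow _ _ hq)).1 h5.symm

theorem OrdN.dvd_geom {q n r : ℕ} (hr : r.Prime) (hq : 2 ≤ q) (hn : 2 ≤ n) (h : OrdN q n r) :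
    r ∣ ∑ i ∈ Finset.range n, q ^ i := by
  have h1 : (∑ i ∈ Finset.range n, q ^ i) * (q - 1) = q ^ n - 1 := by
    have h2 := Nat.geomSum_eq hq n
    rw [h2]
    apply Nat.div_mul_cancel
    exact Nat.sub_one_dvd_pow_sub_one q n
  have h3 := h.1
  rw [← h1] at h3
  rcases hr.dvd_mul.1 h3 with h4 | h4
  · exact h4
  · exfalso
    apply h.2 1 one_pos (by omega)
    rwa [pow_one]

/-- the final inequality -/
theorem ineq {n M r r' : ℕ} (hr3 : 3 ≤ r) (hn : n ≤ r - 1) (hrr : r + 2 ≤ r') (hM : r * r' ≤ M)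
    (h : (M - 1) ^ 2 < (r - 1) * (n * M)) : False := by
  obtain ⟨s, rfl⟩ : ∃ s, r = s + 1 := ⟨r - 1, by omega⟩
  have h1 : (s + 1) * (s + 3) ≤ M := le_trans (Nat.mul_le_mul_left _ (by omega)) hM
  obtain ⟨N, rfl⟩ : ∃ N, M = N + 1 := ⟨M - 1, (Nat.sub_add_cancel (le_trans (by nlinarith) h1)).symm⟩
  simp only [Nat.add_sub_cancel] at h hn
  have h2 : s * (n * (N + 1)) ≤ s * s * (N + 1) := by
    calc s * (n * (N + 1)) ≤ s * (s * (N + 1)) := Nat.mul_le_mul_left _ (Nat.mul_le_mul_right _ hn)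
      _ = s * s * (N + 1) := by ring
  have h3 : s * s + 1 ≤ N := by nlinarith
  have h4 : s * s * (N + 1) ≤ (N - 1) * (N + 1) := Nat.mul_le_mul_right _ (by omega)
  obtain ⟨K, rfl⟩ : ∃ K, N = K + 1 := ⟨N - 1, by omega⟩
  simp only [Nat.add_sub_cancel] at h4
  nlinarith

section

variable {F : Type} [Field F] [Fintype F]

/-- The finite exceptions for the multiplier. -/
theorem multDvd_psl {n : ℕ} (hn : 3 ≤ n) (h1 : (n, Fintype.card F) ≠ (3, 2)) (h2 : (n, Fintype.card F) ≠ (3, 4))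
    (h3 : (n, Fintype.card F) ≠ (4, 2)) :
    MultDvd (ProjectiveSpecialLinearGroup (Fin n) F) (Nat.gcd n (Fintype.card F - 1)) := by
  refine multDvd_of_cyclic (Nat.gcd_pos_of_pos_left _ (by omega)).ne'
    (Cfsg.Agent.S2086.result (F := F) rfl n (by omega) (fun h => by omega) ?_)
  simp only [Set.mem_insert_iff, Set.mem_singleton_iff, not_or]
  refine ⟨fun h => ?_, fun h => ?_, h1, h2, h3⟩
  · have := congrArg Prod.fst h
    simp only at this
    omega
  · have := congrArg Prod.fst h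
    simp only at this
    omega

/-- **No prime divisor `r` but those with `q` of order `n` modulo `r`.** -/
theorem not_may {n : ℕ} (hn : 3 ≤ n) (h1 : (n, Fintype.card F) ≠ (3, 2)) (h2 : (n, Fintype.card F) ≠ (3, 4))
    (h3 : (n, Fintype.card F) ≠ (4, 2)) {r : ℕ} (hr : r.Prime) (hr2 : r ≠ 2)
    (hd : r ∣ Nat.card (ProjectiveSpecialLinearGroup (Fin n) F)) (ho : ¬ OrdN (Fintype.card F) n r) :
    ¬ May r (ProjectiveSpecialLinearGroup (Fin n) F) := by
  obtain ⟨l, f, _, hl, hf, hF⟩ := exists_char F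
  obtain ⟨m, rfl⟩ : ∃ m, n = m + 1 := ⟨n - 1, by omega⟩
  have : Nontrivial (Fin m) := Fin.nontrivial_iff_two_le.2 (by omega)
  let e : Fin m ⊕ Unit ≃ Fin (m + 1) :=
    (Equiv.sumCongr (Equiv.refl _) (Equiv.ofUnique Unit (Fin 1))).trans finSumFinEquiv
  have E : ProjectiveSpecialLinearGroup (Fin m ⊕ Unit) F ≃* ProjectiveSpecialLinearGroup (Fin (m + 1)) F :=
    pslReindex e
  have hs : IsSimpleGroup (ProjectiveSpecialLinearGroup (Fin (m + 1)) F) := Cfsg.Agent.S0249.result (m + 1) hn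
  have hs' : IsSimpleGroup (ProjectiveSpecialLinearGroup (Fin m ⊕ Unit) F) := E.symm.isSimpleGroup_congr.1 hs
  intro hM
  have hM' := hM.of_equiv E.symm
  rcases cases_dvd (by omega) hr hl hF hd with rfl | h4 | h4
  · exact not_may_char (κ := Fin m) hl hr2 hM'
  · refine not_may_of_gl (κ := Fin m) (l := l) hr hr2 hl
      (multDvd_congr (multDvd_psl (F := F) hn h1 h2 h3) E.symm) ?_ h4 hM'
    intro h5
    have h6 : l ∣ Fintype.card F - 1 := h5.trans (Nat.gcd_dvd_right _ _)
    have h7 : l ∣ Fintype.card F := by rw [hF]; exact dvd_pow_self l (by omega)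
    have h8 : 1 ≤ Fintype.card F := Fintype.card_pos
    have h9 := Nat.dvd_sub h7 h6
    rw [Nat.sub_sub_self h8] at h9
    exact hl.one_lt.ne' (Nat.dvd_one.1 h9)
  · exact ho h4

theorem minDeg_psl {n : ℕ} (hn : 3 ≤ n) (h1 : (n, Fintype.card F) ≠ (3, 2)) (h2 : (n, Fintype.card F) ≠ (3, 4))
    (h3 : (n, Fintype.card F) ≠ (4, 2)) (h4 : (n, Fintype.card F) ≠ (4, 3)) :
    MinDeg (ProjectiveSpecialLinearGroup (Fin n) F) (∑ i ∈ Finset.range n, Fintype.card F ^ i - 1) := by
  classical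
  have hq : 2 ≤ Fintype.card F := Fintype.one_lt_card
  have hB : (Fintype.card F ^ n - Fintype.card F) / (Fintype.card F - 1) =
      ∑ i ∈ Finset.range n, Fintype.card F ^ i - 1 := by
    set q := Fintype.card F with hqd
    have h5 : (∑ i ∈ Finset.range n, q ^ i) * (q - 1) = q ^ n - 1 := by
      rw [Nat.geomSum_eq hq n]
      exact Nat.div_mul_cancel (Nat.sub_one_dvd_pow_sub_one q n)
    apply Nat.div_eq_of_eq_mul_left (by omega)
    rw [Nat.sub_mul, h5, one_mul]
    have h6 : q ≤ q ^ n := Nat.le_self_pow (by omega) q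
    omega
  refine minDeg_of_universal (m := Nat.gcd n (Fintype.card F - 1)) (Nat.gcd_pos_of_pos_left _ (by omega)).ne'
    (multDvd_psl hn h1 h2 h3) (υ := pr (Fin n) F) ⟨QuotientGroup.mk'_surjective _, ?_, ?_⟩ ?_ ?_
  · rw [QuotientGroup.ker_mk']
  · refine Cfsg.Agent.LieClassical.SLGen.commutator_eq_top ?_
    rw [Fintype.card_fin]
    exact hn
  · rw [QuotientGroup.ker_mk']
    exact Cfsg.Agent.S0280.card_center_SL (by omega)
  · intro d ρ hρ hd
    rw [← hB]
    exact (Cfsg.Agent.S2332.result (F := F) n hn ⟨h1, h2, h3, h4⟩).1 d ρ hρ hd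

/-- **Two primes with order `n`: the smaller one is excluded.** -/
theorem not_may_num {n : ℕ} (hn : 3 ≤ n) (h1 : (n, Fintype.card F) ≠ (3, 2)) (h2 : (n, Fintype.card F) ≠ (3, 4))
    (h3 : (n, Fintype.card F) ≠ (4, 2)) (h4 : (n, Fintype.card F) ≠ (4, 3)) {r r' : ℕ} (hr : r.Prime) (hr2 : r ≠ 2)
    (hr' : r'.Prime) (hrr : r < r') (ho : OrdN (Fintype.card F) n r) (ho' : OrdN (Fintype.card F) n r')
    (hd : r ∣ Nat.card (ProjectiveSpecialLinearGroup (Fin n) F)) :
    ¬ May r (ProjectiveSpecialLinearGroup (Fin n) F) := by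
  intro hM
  have hq : 2 ≤ Fintype.card F := Fintype.one_lt_card
  have : Fact r.Prime := ⟨hr⟩
  have : Finite (ProjectiveSpecialLinearGroup (Fin n) F) := inferInstance
  obtain ⟨x, hx⟩ := exists_prime_orderOf_dvd_card' r hd
  have h5 := hM.lt_of_minDeg hr hr2 (minDeg_psl hn h1 h2 h3 h4) hx
  have h6 := card_norm_le (by omega) hr ho hx
  have hr3 : 3 ≤ r := by have := hr.two_le; omega
  have hodd : r % 2 = 1 := hr.eq_two_or_odd.resolve_left hr2
  have hodd' : r' % 2 = 1 := hr'.eq_two_or_odd.resolve_left (by omega)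
  have hdv : r * r' ∣ ∑ i ∈ Finset.range n, Fintype.card F ^ i :=
    Nat.Coprime.mul_dvd_of_dvd_of_dvd ((Nat.coprime_primes hr hr').2 hrr.ne)
      (ho.dvd_geom hr hq (by omega)) (ho'.dvd_geom hr' hq (by omega))
  have hpos : 0 < ∑ i ∈ Finset.range n, Fintype.card F ^ i := by
    apply Finset.sum_pos (fun i _ => pow_pos (by omega) i)
    exact ⟨0, Finset.mem_range.2 (by omega)⟩
  exact ineq hr3 (ho.le hr (by omega) (by omega)) (by omega) (Nat.le_of_dvd hpos hdv)
    (lt_of_lt_of_le h5 (Nat.mul_le_mul_left _ h6))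

/-! ### The small cases -/

theorem card_small {n q N : ℕ} (hn : 2 ≤ n) (hF : Fintype.card F = q)
    (h : q ^ (n * (n - 1) / 2) * ∏ i ∈ Finset.range (n - 1), (q ^ (i + 2) - 1) = Nat.gcd n (q - 1) * N) :
    Nat.card (ProjectiveSpecialLinearGroup (Fin n) F) = N := by
  have h1 := Cfsg.Agent.H277.ClsPsl.card_psl (F := F) hF hn
  rw [h] at h1
  exact Nat.eq_of_mul_eq_mul_left (Nat.gcd_pos_of_pos_left _ (by omega)) h1

theorem prime_dvd_168 {r : ℕ} (hr : r.Prime) (h : r ∣ 168) : r = 2 ∨ r = 3 ∨ r = 7 := by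
  have h1 : r ∈ Nat.primeFactors 168 := Nat.mem_primeFactors.2 ⟨hr, h, by norm_num⟩
  rw [show Nat.primeFactors 168 = {2, 3, 7} by decide +kernel] at h1
  simpa using h1

theorem prime_dvd_of {a b c d e f r : ℕ} (hr : r.Prime) (hb : b.Prime) (hd : d.Prime) (hf : f.Prime)
    (h : r ∣ 2 ^ a * (3 ^ e * (b * (d * f ^ c)))) : r = 2 ∨ r = 3 ∨ r = b ∨ r = d ∨ r = f := by
  rcases hr.dvd_mul.1 h with h1 | h1
  · exact Or.inl ((Nat.prime_dvd_prime_iff_eq hr Nat.prime_two).1 (hr.dvd_of_dvd_pow h1))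
  rcases hr.dvd_mul.1 h1 with h2 | h2
  · exact Or.inr (Or.inl ((Nat.prime_dvd_prime_iff_eq hr Nat.prime_three).1 (hr.dvd_of_dvd_pow h2)))
  rcases hr.dvd_mul.1 h2 with h3 | h3
  · exact Or.inr (Or.inr (Or.inl ((Nat.prime_dvd_prime_iff_eq hr hb).1 h3)))
  rcases hr.dvd_mul.1 h3 with h4 | h4
  · exact Or.inr (Or.inr (Or.inr (Or.inl ((Nat.prime_dvd_prime_iff_eq hr hd).1 h4))))
  · exact Or.inr (Or.inr (Or.inr (Or.inr ((Nat.prime_dvd_prime_iff_eq hr hf).1 (hr.dvd_of_dvd_pow h4)))))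

theorem row_three_two (hF : Fintype.card F = 2) : Row (ProjectiveSpecialLinearGroup (Fin 3) F) := by
  have hc : Nat.card (ProjectiveSpecialLinearGroup (Fin 3) F) = 2 ^ 3 * (3 ^ 1 * (7 * (7 * 2 ^ 0))) / 7 :=
    card_small (by norm_num) hF (by decide +kernel)
  refine row_of 3 7 fun r hr hr2 hd h3 h7 => ?_
  exfalso
  rw [hc] at hd
  have hd' : r ∣ 2 ^ 3 * (3 ^ 1 * (7 * (7 * 2 ^ 0))) := hd.trans (by decide)
  rcases prime_dvd_of hr (by norm_num) (by norm_num) (by norm_num) hd' with h | h | h | h | h <;>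
    first | exact hr2 h | exact h3 h | exact h7 h

theorem row_four_three (hF : Fintype.card F = 3) : Row (ProjectiveSpecialLinearGroup (Fin 4) F) := by
  have hc : Nat.card (ProjectiveSpecialLinearGroup (Fin 4) F) = 2 ^ 7 * (3 ^ 6 * (5 * (13 * 2 ^ 0))) :=
    card_small (by norm_num) hF (by decide +kernel)
  refine row_of 5 13 fun r hr hr2 hd h5 h13 => ?_
  rw [hc] at hd
  rcases prime_dvd_of hr (by norm_num) (by norm_num) (by norm_num) hd with h | h | h | h | h
  · exact absurd h hr2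
  · subst h
    have : CharP F 3 := by
      have : Fact (Nat.Prime 3) := ⟨Nat.prime_three⟩
      exact charP_of_card_eq_prime_pow (f := 1) (by rw [hF, pow_one])
    let e : Fin 3 ⊕ Unit ≃ Fin 4 :=
      (Equiv.sumCongr (Equiv.refl _) (Equiv.ofUnique Unit (Fin 1))).trans finSumFinEquiv
    intro hM
    exact not_may_char (κ := Fin 3) Nat.prime_three hr2 (hM.of_equiv (pslReindex (F := F) e).symm)
  · exact absurd h h5
  · exact absurd h h13
  · exact absurd h hr2

/-- `PSL_3(4)`: the Sylow 3-subgroup is not cyclic. -/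
theorem not_may_three_four (hF : Fintype.card F = 4) : ¬ May 3 (ProjectiveSpecialLinearGroup (Fin 3) F) := by
  have : Fact (Nat.Prime 3) := ⟨Nat.prime_three⟩
  have : Finite (ProjectiveSpecialLinearGroup (Fin 3) F) := inferInstance
  obtain ⟨w, hw⟩ := exists_prime_orderOf_dvd_card' (G := Fˣ) 3 (by
    rw [Nat.card_units, Nat.card_eq_fintype_card, hF])
  have hw1 : w ≠ 1 := by
    intro h
    rw [h, orderOf_one] at hw
    exact absurd hw (by norm_num)
  have hw3 : w ^ 3 = 1 := by rw [← hw, pow_orderOf_eq_one]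
  have hw3' : (w : F) * ((w : F) * (w : F)) = 1 := by
    have := congrArg (fun u : Fˣ => (u : F)) hw3
    simp only [Units.val_pow_eq_pow_val, Units.val_one] at this
    rw [← this]
    ring
  let X : SpecialLinearGroup (Fin 3) F := ⟨Matrix.diagonal ![1, (w : F), (w : F) * (w : F)], by
    rw [Matrix.det_diagonal, Fin.prod_univ_three]
    simp only [Matrix.cons_val_zero, Matrix.cons_val_one, Matrix.cons_val_two, Matrix.head_cons, Matrix.tail_cons,
      one_mul]
    exact hw3'⟩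
  let Y : SpecialLinearGroup (Fin 3) F := ⟨!![0, 1, 0; 0, 0, 1; 1, 0, 0], by
    rw [Matrix.det_fin_three]
    simp⟩
  have hX : X.1 = Matrix.diagonal ![1, (w : F), (w : F) * (w : F)] := rfl
  have hY : Y.1 = !![0, 1, 0; 0, 0, 1; 1, 0, 0] := rfl
  have hYX : Y.1 * X.1 = (w : F) • (X.1 * Y.1) := by
    rw [hX, hY]
    ext i j
    fin_cases i <;> fin_cases j <;>
      simp [Matrix.mul_apply, Matrix.diagonal, hw3']
  have hcen : (X * Y)⁻¹ * (Y * X) ∈ Subgroup.center (SpecialLinearGroup (Fin 3) F) := by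
    rw [Subgroup.mem_center_iff]
    intro z
    apply Subtype.ext
    have h3 : ((X * Y)⁻¹ * (Y * X)).1 = (w : F) • (1 : Matrix (Fin 3) (Fin 3) F) := by
      show ((X * Y)⁻¹).1 * (Y.1 * X.1) = _
      rw [hYX, Matrix.mul_smul]
      congr 1
      exact congrArg (fun g : SpecialLinearGroup (Fin 3) F => g.1) (inv_mul_cancel (X * Y))
    show z.1 * ((X * Y)⁻¹ * (Y * X)).1 = ((X * Y)⁻¹ * (Y * X)).1 * z.1
    rw [h3, Matrix.mul_smul, Matrix.smul_mul, Matrix.mul_one, Matrix.one_mul]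
  have hcomm : pr (Fin 3) F X * pr (Fin 3) F Y = pr (Fin 3) F Y * pr (Fin 3) F X := by
    have h1 := pr_eq_one.2 hcen
    rw [map_mul, map_inv, inv_mul_eq_one, map_mul, map_mul] at h1
    exact h1
  have hX3 : X ^ 3 = 1 := by
    apply Subtype.ext
    show (X.1) ^ 3 = 1
    rw [hX, Matrix.diagonal_pow, ← Matrix.diagonal_one]
    congr 1
    funext i
    fin_cases i
    · simp
    · show (w : F) ^ 3 = 1
      rw [← hw3']; ring
    · show ((w : F) * (w : F)) ^ 3 = 1
      have : ((w : F) * (w : F)) ^ 3 = ((w : F) * ((w : F) * (w : F))) ^ 2 := by ring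
      rw [this, hw3', one_pow]
  have hY3 : Y ^ 3 = 1 := by
    apply Subtype.ext
    show (Y.1) ^ 3 = 1
    rw [hY, pow_succ, pow_two]
    ext i j
    fin_cases i <;> fin_cases j <;> simp [Matrix.mul_apply, Fin.sum_univ_three]
  have hXne : pr (Fin 3) F X ≠ 1 := by
    rw [Ne, pr_eq_one]
    intro h
    obtain ⟨c, -, hc⟩ := Matrix.SpecialLinearGroup.mem_center_iff.1 h
    rw [hX] at hc
    have h0 := congrFun (congrFun hc 0) 0
    have h1 := congrFun (congrFun hc 1) 1
    simp at h0 h1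
    apply hw1
    apply Units.ext
    rw [← h1, h0, Units.val_one]
  -- a power of `X` is not `Y` times a scalar
  have hYX2 : ∀ k : ℕ, pr (Fin 3) F X ^ k ≠ pr (Fin 3) F Y := by
    intro k h
    rw [← map_pow, eq_comm, ← inv_mul_eq_one, ← map_inv, ← map_mul, pr_eq_one] at h
    obtain ⟨c, -, hc⟩ := Matrix.SpecialLinearGroup.mem_center_iff.1 h
    have h1 : (X ^ k).1 = Y.1 * Matrix.scalar (Fin 3) c := by
      rw [hc]
      exact congrArg (fun g : SpecialLinearGroup (Fin 3) F => g.1) (mul_inv_cancel_left Y (X ^ k)).symm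
    have h2 : (X ^ k).1 = Matrix.diagonal (![1, (w : F), (w : F) * (w : F)] ^ k) := by
      show (X.1) ^ k = _
      rw [hX, Matrix.diagonal_pow]
    rw [h2, hY] at h1
    have h3 := congrFun (congrFun h1 0) 1
    simp [Matrix.mul_apply, Fin.sum_univ_three] at h3
    rw [← h3] at hc
    have h4 := congrArg Matrix.det hc
    rw [(Y⁻¹ * X ^ k).2] at h4
    simp at h4
  have hYne : pr (Fin 3) F Y ≠ 1 := fun h => hYX2 0 (by rw [pow_zero, h])
  refine not_may_of_comm Nat.prime_three (by norm_num) hcomm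
    (orderOf_eq_prime (by rw [← map_pow, hX3, map_one]) hXne)
    (orderOf_eq_prime (by rw [← map_pow, hY3, map_one]) hYne) ?_
  intro h
  obtain ⟨k, hk⟩ := mem_powers_iff_mem_zpowers.2 h
  exact hYX2 k hk

theorem row_three_four (hF : Fintype.card F = 4) : Row (ProjectiveSpecialLinearGroup (Fin 3) F) := by
  have hc : Nat.card (ProjectiveSpecialLinearGroup (Fin 3) F) = 2 ^ 6 * (3 ^ 2 * (5 * (7 * 2 ^ 0))) :=
    card_small (by norm_num) hF (by decide +kernel)
  refine row_of 5 7 fun r hr hr2 hd h5 h7 => ?_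
  rw [hc] at hd
  rcases prime_dvd_of hr (by norm_num) (by norm_num) (by norm_num) hd with h | h | h | h | h
  · exact absurd h hr2
  · subst h
    exact not_may_three_four hF
  · exact absurd h h5
  · exact absurd h h7
  · exact absurd h hr2

/-- `PSL_4(2)`: two commuting elements of order three. -/
theorem not_may_four_two (hF : Fintype.card F = 2) : ¬ May 3 (ProjectiveSpecialLinearGroup (Fin 4) F) := by
  have : Fact (Nat.Prime 3) := ⟨Nat.prime_three⟩
  have : Finite (ProjectiveSpecialLinearGroup (Fin 4) F) := inferInstance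
  obtain ⟨g, hg⟩ := Cfsg.Agent.H341.ThreeElts.exists_three_SL2 (F := F) (by rw [hF]; norm_num)
  let e : Fin 2 → Fin 4 := Fin.castLE (by norm_num)
  let f : Fin 2 → Fin 4 := Fin.natAdd 2
  have he : Function.Injective e := Fin.castLE_injective _
  have hf : Function.Injective f := Fin.natAdd_injective 2 2
  have hef : ∀ i j, e i ≠ f j := by decide
  have he3 : ∀ i, (3 : Fin 4) ≠ e i := by decide
  have hf0 : ∀ i, (0 : Fin 4) ≠ f i := by decide
  have hei := Cfsg.Agent.H341.ThreeElts.pslExt_injective (F := F) he he3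
  have hfi := Cfsg.Agent.H341.ThreeElts.pslExt_injective (F := F) hf hf0
  have hcomm := fun a b => Cfsg.Agent.H341.ThreeElts.pslExt_comm (F := F) he hf hef a b
  have h1 : orderOf (Cfsg.Agent.H341.ThreeElts.pslExt e he g) = 3 := by rw [orderOf_injective _ hei, hg]
  have h2 : orderOf (Cfsg.Agent.H341.ThreeElts.pslExt f hf g) = 3 := by rw [orderOf_injective _ hfi, hg]
  refine not_may_of_comm Nat.prime_three (by norm_num) (hcomm g g) h1 h2 ?_
  intro h
  -- then a power of `g` is central in `SL₂`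
  obtain ⟨k, hk⟩ := Subgroup.mem_zpowers_iff.1 h
  have hk' : Cfsg.Agent.H341.ThreeElts.pslExt e he (g ^ k) = Cfsg.Agent.H341.ThreeElts.pslExt f hf g := by
    rw [map_zpow]; exact hk
  have h3 : g ^ k ∈ Subgroup.center (SpecialLinearGroup (Fin 2) F) := by
    rw [Subgroup.mem_center_iff]
    intro a
    apply hei
    rw [map_mul, map_mul, hk', hcomm]
  have h4 : Nat.card (Subgroup.center (SpecialLinearGroup (Fin 2) F)) = 1 := by
    rw [Cfsg.Agent.S0280.card_center_SL (by norm_num), hF]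
    rfl
  have h5 : g ^ k = 1 := by
    have h6 : Subgroup.center (SpecialLinearGroup (Fin 2) F) = ⊥ := Subgroup.card_eq_one.1 h4
    rwa [h6, Subgroup.mem_bot] at h3
  rw [h5, map_one] at hk'
  rw [← hk', orderOf_one] at h2
  exact absurd h2 (by norm_num)

theorem row_four_two (hF : Fintype.card F = 2) : Row (ProjectiveSpecialLinearGroup (Fin 4) F) := by
  have hc : Nat.card (ProjectiveSpecialLinearGroup (Fin 4) F) = 2 ^ 6 * (3 ^ 2 * (5 * (7 * 2 ^ 0))) :=
    card_small (by norm_num) hF (by decide +kernel)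
  refine row_of 5 7 fun r hr hr2 hd h5 h7 => ?_
  rw [hc] at hd
  rcases prime_dvd_of hr (by norm_num) (by norm_num) (by norm_num) hd with h | h | h | h | h
  · exact absurd h hr2
  · subst h
    exact not_may_four_two hF
  · exact absurd h h5
  · exact absurd h h7
  · exact absurd h hr2

/-- **The row of `PSL_n(q)`, `n ≥ 3`.** -/
theorem row_psln {F : Type} [Field F] [Fintype F] (n : ℕ) (hn : 3 ≤ n) :
    Row (Matrix.ProjectiveSpecialLinearGroup (Fin n) F) := by
  classical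
  by_cases h1 : (n, Fintype.card F) = (3, 2)
  · obtain ⟨rfl, hF⟩ := Prod.mk.inj h1
    exact row_three_two hF
  by_cases h2 : (n, Fintype.card F) = (3, 4)
  · obtain ⟨rfl, hF⟩ := Prod.mk.inj h2
    exact row_three_four hF
  by_cases h3 : (n, Fintype.card F) = (4, 2)
  · obtain ⟨rfl, hF⟩ := Prod.mk.inj h3
    exact row_four_two hF
  by_cases h4 : (n, Fintype.card F) = (4, 3)
  · obtain ⟨rfl, hF⟩ := Prod.mk.inj h4
    exact row_four_three hF
  have hq : 2 ≤ Fintype.card F := Fintype.one_lt_card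
  have hbd : ∀ r, OrdN (Fintype.card F) n r → r ≤ Fintype.card F ^ n := by
    intro r h
    have h5 : 0 < Fintype.card F ^ n - 1 := by
      have := Nat.one_lt_pow (n := n) (by omega) (show 1 < Fintype.card F by omega)
      omega
    have := Nat.le_of_dvd h5 h.1
    omega
  set a := Nat.findGreatest (fun r => r.Prime ∧ OrdN (Fintype.card F) n r) (Fintype.card F ^ n) with ha
  refine row_of a a fun r hr hr2 hd hra _ => ?_
  by_cases ho : OrdN (Fintype.card F) n r
  · have h5 : r ≤ a := Nat.le_findGreatest (hbd r ho) ⟨hr, ho⟩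
    have h6 : a.Prime ∧ OrdN (Fintype.card F) n a :=
      Nat.findGreatest_spec (P := fun r => r.Prime ∧ OrdN (Fintype.card F) n r) (hbd r ho) ⟨hr, ho⟩
    exact not_may_num hn h1 h2 h3 h4 hr hr2 h6.1 (lt_of_le_of_ne h5 hra) ho h6.2 hd
  · exact not_may hn h1 h2 h3 hr hr2 hd ho

end

end Cfsg.Agent.H679.Fpf
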